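import Mathlib

/-!
Sylow 2-subgroups of two-dimensional groups `M ≤ GL(2, F)`, `|F|` odd, of the shape "2-part of a
maximal torus extended by `w`": the facts needed for the 2-fusion of `PSL(3, q)` and `PSU(3, q)`.
-/

set_option autoImplicit false

namespace CfsgLib.PSL3Two

open Matrix

variable {F : Type*} [Field F]

/-- The scalar matrices, as a predicate. -/
def IsScal (A : Matrix (Fin 2) (Fin 2) F) : Prop := A 0 1 = 0 ∧ A 1 0 = 0 ∧ A 0 0 = A 1 1

theorem eq_smul_one_of_isScal {A : Matrix (Fin 2) (Fin 2) F} (h : IsScal A) : A = A 0 0 • 1 := by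
  obtain ⟨h1, h2, h3⟩ := h
  ext i j
  fin_cases i <;> fin_cases j <;> simp [h1, h2, h3]

theorem isScal_smul_one (c : F) : IsScal (c • (1 : Matrix (Fin 2) (Fin 2) F)) := by
  simp [IsScal]

theorem cayley (A : Matrix (Fin 2) (Fin 2) F) :
    A * A = (A 0 0 + A 1 1) • A - A.det • 1 := by
  ext i j
  fin_cases i <;> fin_cases j <;>
    simp [Matrix.det_fin_two, Matrix.mul_apply, Fin.sum_univ_two] <;> ring

/-- What commutes with a non-scalar matrix is a combination of it and the identity. -/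
theorem exists_comb {A B : Matrix (Fin 2) (Fin 2) F} (hA : ¬ IsScal A) (h : A * B = B * A) :
    ∃ α β : F, B = α • 1 + β • A := by
  have e00 := congrFun (congrFun h 0) 0
  have e01 := congrFun (congrFun h 0) 1
  have e10 := congrFun (congrFun h 1) 0
  simp only [Matrix.mul_apply, Fin.sum_univ_two] at e00 e01 e10
  by_cases h01 : A 0 1 = 0
  · by_cases h10 : A 1 0 = 0
    · have hne : A 0 0 - A 1 1 ≠ 0 := fun h' => hA ⟨h01, h10, sub_eq_zero.1 h'⟩
      have b01 : B 0 1 = 0 := by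
        have : (A 0 0 - A 1 1) * B 0 1 = 0 := by rw [h01] at e01; linear_combination e01
        exact (mul_eq_zero.1 this).resolve_left hne
      have b10 : B 1 0 = 0 := by
        have : (A 0 0 - A 1 1) * B 1 0 = 0 := by rw [h10] at e10; linear_combination -e10
        exact (mul_eq_zero.1 this).resolve_left hne
      refine ⟨B 0 0 - (B 0 0 - B 1 1) / (A 0 0 - A 1 1) * A 0 0, (B 0 0 - B 1 1) / (A 0 0 - A 1 1), ?_⟩
      ext i j
      fin_cases i <;> fin_cases j <;> simp [h01, h10, b01, b10]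
      field_simp
      ring
    · refine ⟨B 0 0 - B 1 0 / A 1 0 * A 0 0, B 1 0 / A 1 0, ?_⟩
      have b01 : B 0 1 = 0 := by
        have : A 1 0 * B 0 1 = 0 := by rw [h01] at e00; linear_combination -e00
        exact (mul_eq_zero.1 this).resolve_left h10
      ext i j
      fin_cases i <;> fin_cases j <;> simp [h01, b01, h10]
      field_simp
      linear_combination -e10
  · refine ⟨B 0 0 - B 0 1 / A 0 1 * A 0 0, B 0 1 / A 0 1, ?_⟩
    ext i j
    fin_cases i <;> fin_cases j <;> simp [h01]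
    · field_simp
      linear_combination e00
    · field_simp
      linear_combination e01

theorem comm_of_comm {A B C : Matrix (Fin 2) (Fin 2) F} (hA : ¬ IsScal A) (hB : A * B = B * A)
    (hC : A * C = C * A) : B * C = C * B := by
  obtain ⟨α, β, rfl⟩ := exists_comb hA hB
  simp [mul_add, add_mul, hC]


theorem gl_ext {g h : (GL (Fin 2) F)} (e : (g : Matrix (Fin 2) (Fin 2) F) = h) : g = h := Units.ext e

/-- The torus datum: an invertible traceless `J` with scalar square, an involution `w` of `M`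
anticommuting with it, and an element `y` of 2-power order commuting with `J` with non-scalar square. -/
structure Datum (M : Subgroup (GL (Fin 2) F)) where
  J : Matrix (Fin 2) (Fin 2) F
  trJ : J 0 0 + J 1 1 = 0
  detJ : J.det ≠ 0
  w : (GL (Fin 2) F)
  w_mem : w ∈ M
  w_sq : w * w = 1
  w_anti : (w : Matrix (Fin 2) (Fin 2) F) * J = -(J * (w : Matrix (Fin 2) (Fin 2) F))
  y : (GL (Fin 2) F)
  y_mem : y ∈ M
  y_comm : (y : Matrix (Fin 2) (Fin 2) F) * J = J * (y : Matrix (Fin 2) (Fin 2) F)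
  y_two : ∃ k, y ^ 2 ^ k = 1
  y_sq : ¬ IsScal ((y : Matrix (Fin 2) (Fin 2) F) * (y : Matrix (Fin 2) (Fin 2) F))

variable {M : Subgroup (GL (Fin 2) F)} (D : Datum M) (h2 : (2 : F) ≠ 0)

include h2 in
theorem Datum.J_not_scal : ¬ IsScal D.J := by
  rintro ⟨h01, h10, h00⟩
  apply D.detJ
  have ht := D.trJ
  rw [← h00, ← two_mul] at ht
  have h0 : D.J 0 0 = 0 := (mul_eq_zero.1 ht).resolve_left h2
  rw [Matrix.det_fin_two, h01, h0]
  ring

include h2 in
theorem Datum.not_both {A : Matrix (Fin 2) (Fin 2) F} (hA : IsUnit A.det) (h : A * D.J = D.J * A)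
    (h' : A * D.J = -(D.J * A)) : False := by
  have hz : (2 : F) • (A * D.J) = 0 := by
    rw [two_smul]
    conv_lhs => arg 1; rw [h']
    rw [h, neg_add_cancel]
  have hAJ : A * D.J = 0 := (smul_eq_zero.1 hz).resolve_left h2
  have := congrArg Matrix.det hAJ
  rw [Matrix.det_mul, Matrix.det_zero] at this
  exact mul_ne_zero hA.ne_zero D.detJ this

include h2 in
/-- An invertible matrix anticommuting with `J` has trace zero, so scalar square. -/
theorem Datum.anti_trace {A : Matrix (Fin 2) (Fin 2) F} (hA : IsUnit A.det) (h : A * D.J = -(D.J * A)) :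
    A * A = (-A.det) • 1 := by
  have ht : A 0 0 + A 1 1 = 0 := by
    by_contra hne
    refine D.not_both h2 hA ?_ h
    have hc : A * A * D.J = D.J * (A * A) := by
      rw [Matrix.mul_assoc, h, Matrix.mul_neg, ← Matrix.mul_assoc, h, Matrix.neg_mul, neg_neg, Matrix.mul_assoc]
    rw [cayley A] at hc
    simp only [Matrix.sub_mul, Matrix.mul_sub, Matrix.smul_mul, Matrix.mul_smul, Matrix.one_mul, Matrix.mul_one,
      sub_left_inj] at hc
    exact smul_right_injective _ hne hc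
  rw [cayley, ht, zero_smul, zero_sub, neg_smul]

theorem det_isUnit (g : (GL (Fin 2) F)) : IsUnit (g : Matrix (Fin 2) (Fin 2) F).det :=
  (Matrix.isUnit_iff_isUnit_det _).1 g.isUnit

/-- Commuting with `J`. -/
def Datum.Comm (g : (GL (Fin 2) F)) : Prop :=
  (g : Matrix (Fin 2) (Fin 2) F) * D.J = D.J * (g : Matrix (Fin 2) (Fin 2) F)

/-- Anticommuting with `J`. -/
def Datum.Anti (g : (GL (Fin 2) F)) : Prop :=
  (g : Matrix (Fin 2) (Fin 2) F) * D.J = -(D.J * (g : Matrix (Fin 2) (Fin 2) F))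

theorem Datum.comm_mul {g h : (GL (Fin 2) F)} (hg : D.Comm g) (hh : D.Comm h) : D.Comm (g * h) := by
  show ((g : Matrix (Fin 2) (Fin 2) F) * h) * D.J = D.J * (g * h)
  rw [Matrix.mul_assoc, hh, ← Matrix.mul_assoc, hg, Matrix.mul_assoc]

theorem Datum.comm_inv {g : (GL (Fin 2) F)} (hg : D.Comm g) : D.Comm g⁻¹ :=
  (Commute.units_inv_left (show Commute (g : Matrix (Fin 2) (Fin 2) F) D.J from hg))

theorem Datum.comm_anti {g h : (GL (Fin 2) F)} (hg : D.Comm g) (hh : D.Anti h) : D.Anti (g * h) := by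
  show ((g : Matrix (Fin 2) (Fin 2) F) * h) * D.J = -(D.J * (g * h))
  rw [Matrix.mul_assoc, hh, Matrix.mul_neg, ← Matrix.mul_assoc, hg, Matrix.mul_assoc]

theorem Datum.anti_comm {g h : (GL (Fin 2) F)} (hg : D.Anti g) (hh : D.Comm h) : D.Anti (g * h) := by
  show ((g : Matrix (Fin 2) (Fin 2) F) * h) * D.J = -(D.J * (g * h))
  rw [Matrix.mul_assoc, hh, ← Matrix.mul_assoc, hg, Matrix.neg_mul, Matrix.mul_assoc]

theorem Datum.anti_anti {g h : (GL (Fin 2) F)} (hg : D.Anti g) (hh : D.Anti h) : D.Comm (g * h) := by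
  show ((g : Matrix (Fin 2) (Fin 2) F) * h) * D.J = D.J * (g * h)
  rw [Matrix.mul_assoc, hh, Matrix.mul_neg, ← Matrix.mul_assoc, hg, Matrix.neg_mul, neg_neg, Matrix.mul_assoc]

theorem Datum.w_isAnti : D.Anti D.w := D.w_anti

theorem Datum.w_inv : D.w⁻¹ = D.w := inv_eq_of_mul_eq_one_left D.w_sq

include h2 in
theorem Datum.comm_commute {g h : (GL (Fin 2) F)} (hg : D.Comm g) (hh : D.Comm h) : g * h = h * g :=
  gl_ext (comm_of_comm (D.J_not_scal h2) hg.symm hh.symm)

/-- The 2-elements of `M` commuting with `J`. -/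
def Datum.A : Subgroup (GL (Fin 2) F) where
  carrier := {g | g ∈ M ∧ D.Comm g ∧ ∃ k, g ^ 2 ^ k = 1 ∧ (2 : F) ≠ 0} ∪ {1}
  one_mem' := Or.inr rfl
  mul_mem' := by
    rintro a b (⟨ha, ha', k, hk, hF⟩ | rfl) (⟨hb, hb', l, hl, hF'⟩ | rfl)
    · refine Or.inl ⟨M.mul_mem ha hb, D.comm_mul ha' hb', k + l, ?_, hF⟩
      rw [(show Commute a b from D.comm_commute hF ha' hb').mul_pow, pow_add]
      conv_lhs => arg 2; rw [mul_comm, pow_mul, hl, one_pow]
      rw [pow_mul, hk, one_pow, one_mul]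
    · rw [mul_one]; exact Or.inl ⟨ha, ha', k, hk, hF⟩
    · rw [one_mul]; exact Or.inl ⟨hb, hb', l, hl, hF'⟩
    · exact Or.inr (mul_one 1)
  inv_mem' := by
    rintro a (⟨ha, ha', k, hk, hF⟩ | rfl)
    · exact Or.inl ⟨M.inv_mem ha, D.comm_inv ha', k, by rw [inv_pow, hk, inv_one], hF⟩
    · exact Or.inr inv_one

include h2 in
theorem Datum.mem_A {g : (GL (Fin 2) F)} : g ∈ D.A ↔ g ∈ M ∧ D.Comm g ∧ ∃ k, g ^ 2 ^ k = 1 := by
  constructor
  · rintro (⟨h, h', k, hk, -⟩ | rfl)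
    · exact ⟨h, h', k, hk⟩
    · exact ⟨M.one_mem, by simp [Datum.Comm], 0, by simp⟩
  · rintro ⟨h, h', k, hk⟩
    exact Or.inl ⟨h, h', k, hk, h2⟩

include h2 in
theorem Datum.w_conj_mem_A {g : (GL (Fin 2) F)} (hg : g ∈ D.A) : D.w * g * D.w ∈ D.A := by
  obtain ⟨hgM, hgc, k, hk⟩ := (D.mem_A h2).1 hg
  refine (D.mem_A h2).2 ⟨M.mul_mem (M.mul_mem D.w_mem hgM) D.w_mem, D.anti_anti (D.anti_comm D.w_isAnti hgc) D.w_isAnti, k, ?_⟩
  conv_lhs => arg 1; arg 2; rw [← D.w_inv]
  rw [conj_pow, hk, mul_one, mul_inv_cancel]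

/-- The subgroup `A⟨w⟩`. -/
def Datum.S₀ (h2 : (2 : F) ≠ 0) : Subgroup (GL (Fin 2) F) where
  carrier := {g | g ∈ D.A ∨ g * D.w ∈ D.A}
  one_mem' := Or.inl D.A.one_mem
  mul_mem' := by
    rintro a b (ha | ha) (hb | hb)
    · exact Or.inl (D.A.mul_mem ha hb)
    · exact Or.inr (by rw [mul_assoc]; exact D.A.mul_mem ha hb)
    · refine Or.inr ?_
      have e : a * b * D.w = a * D.w * (D.w * b * D.w) := by
        simp only [mul_assoc]
        rw [← mul_assoc D.w D.w, D.w_sq, one_mul]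
      rw [e]
      exact D.A.mul_mem ha (D.w_conj_mem_A h2 hb)
    · refine Or.inl ?_
      have e : a * b = a * D.w * (D.w * (b * D.w) * D.w) := by
        simp only [mul_assoc, D.w_sq, mul_one]
        rw [← mul_assoc D.w D.w, D.w_sq, one_mul]
      rw [e]
      exact D.A.mul_mem ha (D.w_conj_mem_A h2 hb)
  inv_mem' := by
    rintro a (ha | ha)
    · exact Or.inl (D.A.inv_mem ha)
    · refine Or.inr ?_
      have e : a⁻¹ * D.w = D.w * (a * D.w)⁻¹ * D.w := by
        rw [_root_.mul_inv_rev, D.w_inv, ← mul_assoc, D.w_sq, one_mul]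
      rw [e]
      exact D.w_conj_mem_A h2 (D.A.inv_mem ha)

include h2 in
theorem Datum.mem_S₀_iff {g : (GL (Fin 2) F)} : g ∈ D.S₀ h2 ↔ g ∈ D.A ∨ g * D.w ∈ D.A := Iff.rfl

include h2 in
theorem Datum.A_le_M {g : (GL (Fin 2) F)} (hg : g ∈ D.A) : g ∈ M := ((D.mem_A h2).1 hg).1

include h2 in
theorem Datum.A_comm {g : (GL (Fin 2) F)} (hg : g ∈ D.A) : D.Comm g := ((D.mem_A h2).1 hg).2.1

include h2 in
theorem Datum.anti_of_mul_w {g : (GL (Fin 2) F)} (hg : g * D.w ∈ D.A) : D.Anti g := by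
  have h := D.comm_anti (D.A_comm h2 hg) D.w_isAnti
  rwa [mul_assoc, D.w_sq, mul_one] at h

theorem Datum.S₀_le : D.S₀ h2 ≤ M := by
  rintro g (h | h)
  · exact D.A_le_M h2 h
  · have := M.mul_mem (D.A_le_M h2 h) D.w_mem
    rwa [mul_assoc, D.w_sq, mul_one] at this

include h2 in
theorem Datum.comm_mem_A {g : (GL (Fin 2) F)} (hg : g ∈ D.S₀ h2) (hc : D.Comm g) : g ∈ D.A := by
  rcases hg with h | h
  · exact h
  · exact (D.not_both h2 (det_isUnit g) hc (D.anti_of_mul_w h2 h)).elim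

theorem Datum.w_mem_S₀ : D.w ∈ D.S₀ h2 := Or.inr (by rw [D.w_sq]; exact D.A.one_mem)

include h2 in
theorem Datum.y_mem_A : D.y ∈ D.A := (D.mem_A h2).2 ⟨D.y_mem, D.y_comm, D.y_two⟩

theorem Datum.y_mem_S₀ : D.y ∈ D.S₀ h2 := Or.inl (D.y_mem_A h2)

include h2 in
theorem Datum.S₀_isPGroup : IsPGroup 2 (D.S₀ h2) := by
  rintro ⟨g, hg⟩
  rcases hg with h | h
  · obtain ⟨k, hk⟩ := ((D.mem_A h2).1 h).2.2
    exact ⟨k, Subtype.ext hk⟩
  · have hw : D.w * (g * D.w) * D.w ∈ D.A := D.w_conj_mem_A h2 h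
    have hsq : g * g ∈ D.A := by
      have e : g * g = g * D.w * (D.w * (g * D.w) * D.w) := by
        simp only [mul_assoc, D.w_sq, mul_one]
        rw [← mul_assoc D.w D.w, D.w_sq, one_mul]
      rw [e]
      exact D.A.mul_mem h hw
    obtain ⟨k, hk⟩ := ((D.mem_A h2).1 hsq).2.2
    exact ⟨k + 1, Subtype.ext (show g ^ 2 ^ (k + 1) = 1 by rw [pow_succ', pow_mul, pow_two, hk])⟩

theorem isScal_conj {A : Matrix (Fin 2) (Fin 2) F} (x : (GL (Fin 2) F)) (h : IsScal ((x : Matrix (Fin 2) (Fin 2) F) * A * ((x⁻¹ : (GL (Fin 2) F)) : Matrix (Fin 2) (Fin 2) F))) :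
    IsScal A := by
  have he := eq_smul_one_of_isScal h
  have hA : A = ((x⁻¹ : (GL (Fin 2) F)) : Matrix (Fin 2) (Fin 2) F) *
      ((x : Matrix (Fin 2) (Fin 2) F) * A * ((x⁻¹ : (GL (Fin 2) F)) : Matrix (Fin 2) (Fin 2) F)) * x := by
    simp [← Matrix.mul_assoc]
  rw [hA, he]
  simp only [Matrix.mul_smul, Matrix.mul_one, Matrix.smul_mul]
  rw [show ((x⁻¹ : (GL (Fin 2) F)) : Matrix (Fin 2) (Fin 2) F) * x = 1 from by simp]
  exact isScal_smul_one _

include h2 in
/-- What normalizes `S₀` commutes or anticommutes with `J`. -/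
theorem Datum.normalizes_dichotomy {x : (GL (Fin 2) F)} (hx : x * D.y * x⁻¹ ∈ D.S₀ h2) : D.Comm x ∨ D.Anti x := by
  set g := x * D.y * x⁻¹ with hg
  have hgsq : ¬ IsScal ((g : Matrix (Fin 2) (Fin 2) F) * (g : Matrix (Fin 2) (Fin 2) F)) := by
    intro h
    apply D.y_sq
    refine isScal_conj x ?_
    have e : g * g = x * (D.y * D.y) * x⁻¹ := by rw [hg]; group
    have e' := congrArg (fun z : (GL (Fin 2) F) => (z : Matrix (Fin 2) (Fin 2) F)) e
    simp only [Units.val_mul] at e'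
    rw [← e']
    exact h
  have hgA : g ∈ D.A := by
    rcases hx with h | h
    · exact h
    · refine absurd ?_ hgsq
      rw [D.anti_trace h2 (det_isUnit g) (D.anti_of_mul_w h2 h)]
      exact isScal_smul_one _
  have hgns : ¬ IsScal (g : Matrix (Fin 2) (Fin 2) F) := fun h => hgsq (by
    rw [eq_smul_one_of_isScal h, smul_mul_assoc, one_mul, smul_smul]
    exact isScal_smul_one _)
  set J' := (x : Matrix (Fin 2) (Fin 2) F) * D.J * (x⁻¹ : (GL (Fin 2) F)) with hJ'
  have hxx : ((x⁻¹ : (GL (Fin 2) F)) : Matrix (Fin 2) (Fin 2) F) * x = 1 := by simp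
  have hcomm : (g : Matrix (Fin 2) (Fin 2) F) * J' = J' * g := by
    rw [hg, hJ']
    simp only [Units.val_mul, Matrix.mul_assoc]
    rw [← Matrix.mul_assoc ((x⁻¹ : (GL (Fin 2) F)) : Matrix (Fin 2) (Fin 2) F) (x : Matrix (Fin 2) (Fin 2) F), hxx,
      Matrix.one_mul]
    rw [← Matrix.mul_assoc ((x⁻¹ : (GL (Fin 2) F)) : Matrix (Fin 2) (Fin 2) F) (x : Matrix (Fin 2) (Fin 2) F), hxx,
      Matrix.one_mul, ← Matrix.mul_assoc (D.y : Matrix (Fin 2) (Fin 2) F), D.y_comm, Matrix.mul_assoc]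
  have hJJ : D.J * J' = J' * D.J := comm_of_comm hgns (D.A_comm h2 hgA) hcomm
  obtain ⟨α, β, hαβ⟩ := exists_comb (D.J_not_scal h2) hJJ
  have htr : J'.trace = D.J.trace := by rw [hJ', Matrix.trace_mul_cycle, hxx, Matrix.one_mul]
  have hdet : J'.det = D.J.det := by
    rw [hJ', Matrix.det_mul, Matrix.det_mul, mul_right_comm, ← Matrix.det_mul,
      show (x : Matrix (Fin 2) (Fin 2) F) * (x⁻¹ : (GL (Fin 2) F)) = 1 by simp, Matrix.det_one, one_mul]
  rw [hαβ] at htr hdet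
  simp only [Matrix.trace_add, Matrix.trace_smul, Matrix.trace_fin_two, smul_eq_mul, D.trJ, Matrix.one_apply_eq,
    mul_zero, add_zero] at htr
  have hα : α = 0 := by
    rw [← two_mul, mul_one] at htr
    rcases mul_eq_zero.1 (show (2 : F) * α = 0 by linear_combination htr) with h | h
    · exact absurd h h2
    · exact h
  rw [hα, zero_smul, zero_add] at hαβ hdet
  rw [Matrix.det_smul, Fintype.card_fin] at hdet
  have hβ : β = 1 ∨ β = -1 := by
    rw [← mul_self_eq_one_iff, ← pow_two]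
    exact mul_right_cancel₀ D.detJ (hdet.trans (one_mul _).symm)
  have hxJ : (x : Matrix (Fin 2) (Fin 2) F) * D.J = J' * x := by
    rw [hJ', Matrix.mul_assoc _ _ (x : Matrix (Fin 2) (Fin 2) F), hxx, Matrix.mul_one]
  rcases hβ with h | h
  · left; show _ = _; rw [hxJ, hαβ, h, one_smul]
  · right; show _ = _; rw [hxJ, hαβ, h, neg_smul, one_smul, Matrix.neg_mul]

include h2 in
/-- A 2-subgroup of `M` containing `S₀` is equal to it. -/
theorem Datum.S₀_max [Finite (GL (Fin 2) F)] {P : Subgroup (GL (Fin 2) F)} (hP : IsPGroup 2 P) (hPM : P ≤ M) (hle : D.S₀ h2 ≤ P) :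
    P = D.S₀ h2 := by
  by_contra hne
  haveI : Group.IsNilpotent P := hP.isNilpotent
  have hlt : (D.S₀ h2).subgroupOf P < ⊤ := by
    rw [lt_top_iff_ne_top, ne_eq, Subgroup.subgroupOf_eq_top]
    exact fun h => hne (le_antisymm h hle)
  obtain ⟨⟨x, hxP⟩, hxN, hxS⟩ := SetLike.exists_of_lt (Group.normalizerCondition_of_isNilpotent (G := P) _ hlt)
  have hconj : x * D.y * x⁻¹ ∈ D.S₀ h2 :=
    (Subgroup.mem_normalizer_iff.1 hxN ⟨D.y, hle (D.y_mem_S₀ h2)⟩).1 (D.y_mem_S₀ h2)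
  apply hxS
  show x ∈ D.S₀ h2
  have two : ∀ z ∈ P, ∃ k, z ^ 2 ^ k = 1 := fun z hz => by
    obtain ⟨k, hk⟩ := hP ⟨z, hz⟩
    exact ⟨k, congrArg Subtype.val hk⟩
  rcases D.normalizes_dichotomy h2 hconj with h | h
  · exact Or.inl ((D.mem_A h2).2 ⟨hPM hxP, h, two x hxP⟩)
  · have hxw : x * D.w ∈ P := P.mul_mem hxP (hle (D.w_mem_S₀ h2))
    exact Or.inr ((D.mem_A h2).2 ⟨hPM hxw, D.anti_anti h D.w_isAnti, two _ hxw⟩)

include h2 in
/-- The only central involution of `S₀` is `-1`. -/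
theorem Datum.central_involution {u : (GL (Fin 2) F)} (hu : u ∈ D.S₀ h2) (huu : u * u = 1) (hu1 : u ≠ 1)
    (hy : u * D.y = D.y * u) (hw : u * D.w = D.w * u) : (u : Matrix (Fin 2) (Fin 2) F) = -1 := by
  have hyns : ¬ IsScal (D.y : Matrix (Fin 2) (Fin 2) F) := fun h => D.y_sq (by
    rw [eq_smul_one_of_isScal h, smul_mul_assoc, one_mul, smul_smul]; exact isScal_smul_one _)
  have huJ : D.Comm u := comm_of_comm hyns (congrArg (fun z : (GL (Fin 2) F) => (z : Matrix (Fin 2) (Fin 2) F)) hy).symm D.y_comm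
  obtain ⟨α, β, hαβ⟩ := exists_comb (D.J_not_scal h2) huJ.symm
  have hw' : (u : Matrix (Fin 2) (Fin 2) F) * D.w = D.w * u := congrArg (fun z : (GL (Fin 2) F) => (z : Matrix (Fin 2) (Fin 2) F)) hw
  rw [hαβ] at hw'
  simp only [Matrix.add_mul, Matrix.mul_add, Matrix.smul_mul, Matrix.mul_smul, Matrix.one_mul, Matrix.mul_one,
    add_right_inj, D.w_anti, smul_neg] at hw'
  have hβ : β = 0 := by
    by_contra h
    have hz : (2 : F) • (β • (D.J * (D.w : Matrix (Fin 2) (Fin 2) F))) = 0 := by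
      rw [two_smul]
      conv_lhs => arg 1; rw [hw']
      exact neg_add_cancel _
    have h0 := (smul_eq_zero.1 ((smul_eq_zero.1 hz).resolve_left h2)).resolve_left h
    have := congrArg Matrix.det h0
    rw [Matrix.det_mul, Matrix.det_zero] at this
    exact mul_ne_zero D.detJ (det_isUnit D.w).ne_zero this
  rw [hβ, zero_smul, add_zero] at hαβ
  have hsq : (u : Matrix (Fin 2) (Fin 2) F) * u = 1 := congrArg (fun z : (GL (Fin 2) F) => (z : Matrix (Fin 2) (Fin 2) F)) huu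
  rw [hαβ, smul_mul_assoc, one_mul, smul_smul] at hsq
  have hα : α * α = 1 := by simpa using congrFun (congrFun hsq 0) 0
  rcases mul_self_eq_one_iff.1 hα with h | h
  · exact absurd (gl_ext (by rw [hαβ, h, one_smul]; rfl)) hu1
  · rw [hαβ, h, neg_smul, one_smul]

include h2 in
/-- An element of odd order normalizing `S₀` centralizes it. -/
theorem Datum.odd_normalizer [Finite (GL (Fin 2) F)] {g : (GL (Fin 2) F)} (hgM : g ∈ M) (hodd : Odd (orderOf g))
    (hN : ∀ s ∈ D.S₀ h2, g * s * g⁻¹ ∈ D.S₀ h2) : ∀ s ∈ D.S₀ h2, g * s = s * g := by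
  have hc : D.Comm g := by
    rcases D.normalizes_dichotomy h2 (hN _ (D.y_mem_S₀ h2)) with h | h
    · exact h
    · exfalso
      obtain ⟨k, hk⟩ := hodd
      have hg : g = (g * g) ^ (k + 1) := by
        rw [← pow_two, ← pow_mul, show 2 * (k + 1) = orderOf g + 1 by omega, pow_succ, pow_orderOf_eq_one, one_mul]
      refine D.not_both h2 (det_isUnit g) ?_ h
      have hcc : D.Comm (g * g) := D.anti_anti h h
      have : D.Comm ((g * g) ^ (k + 1)) := by
        clear hg hk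
        induction k with
        | zero => rw [pow_one]; exact hcc
        | succ n ih => rw [pow_succ]; exact D.comm_mul ih hcc
      rw [← hg] at this
      exact this
  have hw : g * D.w = D.w * g := by
    set c := g * D.w * g⁻¹ * D.w with hcdef
    have hcS : c ∈ D.S₀ h2 := (D.S₀ h2).mul_mem (hN _ (D.w_mem_S₀ h2)) (D.w_mem_S₀ h2)
    have hconj : D.Comm (D.w * g⁻¹ * D.w) := D.anti_anti (D.anti_comm D.w_isAnti (D.comm_inv hc)) D.w_isAnti
    have hce : c = g * (D.w * g⁻¹ * D.w) := by rw [hcdef]; group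
    have hcc : D.Comm c := by rw [hce]; exact D.comm_mul hc hconj
    obtain ⟨l, hl⟩ := ((D.mem_A h2).1 (D.comm_mem_A h2 hcS hcc)).2.2
    have hpow : c ^ orderOf g = 1 := by
      rw [hce, (show Commute g (D.w * g⁻¹ * D.w) from D.comm_commute h2 hc hconj).mul_pow, pow_orderOf_eq_one,
        one_mul]
      conv_lhs => arg 1; arg 2; rw [← D.w_inv]
      rw [conj_pow, inv_pow, pow_orderOf_eq_one, inv_one, mul_one, mul_inv_cancel]
    have hc1 : c = 1 := by
      rw [← orderOf_eq_one_iff]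
      have h1 := orderOf_dvd_of_pow_eq_one hpow
      have h3 := orderOf_dvd_of_pow_eq_one hl
      have hcop : Nat.Coprime (orderOf g) (2 ^ l) :=
        Nat.Coprime.pow_right l (Nat.coprime_two_right.2 hodd)
      exact Nat.dvd_one.1 (hcop ▸ Nat.dvd_gcd h1 h3)
    have h4 := hc1
    rw [hcdef, mul_eq_one_iff_eq_inv, D.w_inv, mul_inv_eq_iff_eq_mul] at h4
    exact h4
  intro s hs
  rcases hs with h | h
  · exact D.comm_commute h2 hc (D.A_comm h2 h)
  · have e : s = s * D.w * D.w := by rw [mul_assoc, D.w_sq, mul_one]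
    rw [e, ← mul_assoc g, D.comm_commute h2 hc (D.A_comm h2 h), mul_assoc, hw, ← mul_assoc]

include h2 in
/-- An element of `A` of determinant one is a product of two involutions of `S₀`. -/
theorem Datum.mem_of_det_one {T : Subgroup (GL (Fin 2) F)} (hinv : ∀ x ∈ D.S₀ h2, x * x = 1 → x ∈ T) {x : (GL (Fin 2) F)}
    (hx : x ∈ D.A) (hdet : (x : Matrix (Fin 2) (Fin 2) F).det = 1) (hw : (D.w : Matrix (Fin 2) (Fin 2) F).det = -1) :
    x ∈ T := by
  have hxw : x * D.w ∈ D.S₀ h2 := (D.S₀ h2).mul_mem (Or.inl hx) (D.w_mem_S₀ h2)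
  have h1 : x * D.w ∈ T := by
    refine hinv _ hxw (gl_ext ?_)
    have := D.anti_trace h2 (det_isUnit (x * D.w)) (D.comm_anti (D.A_comm h2 hx) D.w_isAnti)
    rw [Units.val_mul, this, Units.val_mul, Matrix.det_mul, hdet, hw, one_mul, neg_neg, one_smul]
    rfl
  have h3 := T.mul_mem h1 (hinv _ (D.w_mem_S₀ h2) D.w_sq)
  rwa [mul_assoc, D.w_sq, mul_one] at h3

end CfsgLib.PSL3Two
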